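import Mathlib
import Cfsg.Agent.Lib.Oct.PB
import Cfsg.Agent.Lib.Oct.HA

/-!
# Fusion: into E
-/

set_option autoImplicit false
set_option linter.unusedSectionVars false

namespace H78.Oct

open Co

variable {K C G : Type*} [Field K] [Tits K] [Finite K] [Group C] [Finite C] [Group G] [Finite G]
  {P : Par K C} {ι : C →* G}

theorem fa_card_Z : Nat.card ((Z : Subgroup (Co K)).map P.nf) ≤ Nat.card K := by
  refine Nat.card_le_card_of_surjective (fun t : K => ⟨P.nf (y4 0 t), y4 0 t, by simp, rfl⟩) ?_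
  rintro ⟨_, a, ha, rfl⟩
  refine ⟨a.b4, Subtype.ext (congrArg P.nf ?_)⟩
  rw [SetLike.mem_coe, mem_Z] at ha
  ext <;> simp [ha]

theorem fa_zz : P.z * P.z = 1 := by
  rw [Par.z, ← map_mul, ← map_one P.nf]
  congr 1
  ext <;> simp [CharTwo.add_self_eq_zero]

theorem fa_sq (H : Hyp P ι) {g : G} {c : C} (h : g * ι P.z * g⁻¹ = ι c) : c * c = 1 :=
  H.inj (by rw [map_mul, ← h, conj_mul, ← map_mul, fa_zz, map_one, mul_one, mul_inv_cancel])

/-- an elementary abelian group `B` with `c B` conjugate to `c`, seen from the centralizer of `c` -/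
theorem fa_key (H : Hyp P ι) {g : G} {c : C} (h : g * ι P.z * g⁻¹ = ι c) (B : Subgroup C)
    (h1 : ∀ b ∈ B, b * b = 1) (h2 : ∀ b ∈ B, ∃ e, e * c * e⁻¹ = c * b) :
    ∃ B' : Subgroup C, (∀ b ∈ B', b * b = 1) ∧ Nat.card B ≤ Nat.card B' ∧ (P.z ∈ B' → c ∈ B) ∧
      ∀ D : Subgroup (Co K), y4 0 1 ∈ D → B' ⊓ D.map P.nf ≤ Z.map P.nf ∨
        ∃ g : G, ∃ a ∈ D, a ∉ Z ∧ g * ι P.z * g⁻¹ = ι (P.nf a) := by
  have cc := fa_sq H h
  have ex : ∀ b : B, ∃ x, g⁻¹ * ι b * g = ι x := fun b => by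
    obtain ⟨e, he⟩ := h2 b b.2
    have e1 : c * b * (c * b) = 1 := by rw [← he, conj_mul, cc, mul_one, mul_inv_cancel]
    have e2 : c * b = b * c := by
      rw [← inv_eq_of_mul_eq_one_right e1, mul_inv_rev, inv_eq_of_mul_eq_one_right cc,
        inv_eq_of_mul_eq_one_right (h1 b b.2)]
    refine H.mem_of_two (j := 1) ?_ ?_
    · have e3 : ι P.z = g⁻¹ * ι c * g := by rw [← h]; group
      change _ * _ = _ * _
      rw [e3]
      calc _ = g⁻¹ * ι (b * c) * g := by rw [map_mul]; group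
        _ = _ := by rw [← e2, map_mul]; group
    · rw [pow_one, pow_two, show g⁻¹ * ι b * g * (g⁻¹ * ι b * g) = g⁻¹ * ι (b * b) * g by rw [map_mul]; group,
        h1 b b.2, map_one, mul_one, inv_mul_cancel]
  choose x hx using ex
  refine ⟨(B.map ι).comap ((MulAut.conj g).toMonoidHom.comp ι), ?_, ?_, ?_, fun D hD => ?_⟩
  · rintro y ⟨b, hb, e⟩
    change ι b = g * ι y * g⁻¹ at e
    refine H.inj ?_
    rw [map_mul, map_one, ← conj_eq_one_iff (a := g), ← conj_mul, ← e, ← map_mul, h1 b hb, map_one]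
  · refine Nat.card_le_card_of_injective (fun b => ⟨x b, b, b.2, ?_⟩) fun b b' e => ?_
    · change ι b = g * ι (x b) * g⁻¹
      rw [← hx]; group
    · have e1 : x b = x b' := congrArg Subtype.val e
      have e2 := hx b
      rw [e1, ← hx b'] at e2
      exact Subtype.ext (H.inj (mul_left_cancel (mul_right_cancel e2)))
  · rintro ⟨b, hb, e⟩
    change ι b = g * ι P.z * g⁻¹ at e
    exact H.inj (e.trans h) ▸ hb
  · refine or_iff_not_imp_left.2 fun n => ?_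
    obtain ⟨_, ⟨⟨b, hb, e⟩, a, ha, rfl⟩, hn⟩ := SetLike.not_le_iff_exists.1 n
    change ι b = g * ι (P.nf a) * g⁻¹ at e
    obtain ⟨e', he⟩ := h2 b hb
    refine ⟨g⁻¹ * ι e' * g, y4 0 1 * a, D.mul_mem hD ha, fun z => hn ⟨a, (Z.mul_mem_cancel_left (by simp)).1 z,
      rfl⟩, ?_⟩
    calc _ = g⁻¹ * (ι e' * (g * ι P.z * g⁻¹) * (ι e')⁻¹) * g := by group
      _ = g⁻¹ * (ι c * ι b) * g := by rw [h, ← map_inv, ← map_mul, ← map_mul, he, map_mul]
      _ = _ := by rw [← h, e, map_mul, map_mul, Par.z]; group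

theorem fa_move {g : G} {c c' d : C} (h : g * ι P.z * g⁻¹ = ι c) (e : d * c * d⁻¹ = c') :
    ι d * g * ι P.z * (ι d * g)⁻¹ = ι c' := by
  rw [← e, map_mul, map_mul, map_inv, ← h]; group

/-- the commutators of `a` with `Z₂ U₃` -/
def faH (a : Co K) : Multiplicative (K × K) →* Co K where
  toFun v := pbE 0 0 (a.a6 * v.toAdd.2 + a.a7 * v.toAdd.1 + a.b8 * σ v.toAdd.1) (a.b8 * v.toAdd.1)
    (a.b8 * v.toAdd.2 + σ a.b8 * v.toAdd.1)
  map_one' := by ext <;> simp [pbE]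
  map_mul' v w := by ext <;> simp [pbE] <;> ring

theorem Hyp.fus_Q (H : Hyp P ι) {g : G} {c : C} (h : g * ι P.z * g⁻¹ = ι c) (hc : c ∉ Z.map P.nf) :
    ∃ g : G, ∃ a ∈ Q, a ∉ Z ∧ g * ι P.z * g⁻¹ = ι (P.nf a) := by
  by_cases hq : c ∈ Q.map P.nf
  · obtain ⟨a, ha, rfl⟩ := hq
    exact ⟨g, a, ha, fun z => hc ⟨a, z, rfl⟩, h⟩
  obtain ⟨d, a, h8, hb, e⟩ := P.classC hq (fa_sq H h)
  have inj : Function.Injective (P.nf.comp (faH a)) := (injective_iff_map_eq_one _).2 fun v hv => by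
    have e1 : faH a v = 1 := P.inj (hv.trans (map_one _).symm)
    have e2 : v.toAdd.1 = 0 := by simpa [faH, pbE, hb] using congrArg Co.a5 e1
    have e3 : v.toAdd.2 = 0 := by simpa [faH, pbE, hb, e2] using congrArg Co.b6 e1
    exact Multiplicative.toAdd.injective (Prod.ext e2 e3)
  obtain ⟨B, b1, b2, b3, b4⟩ := fa_key H (fa_move h e) (P.nf.comp (faH a)).range
    (by
      rintro _ ⟨v, rfl⟩
      rw [MonoidHom.comp_apply, ← map_mul, ← map_one P.nf]
      congr 1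
      ext <;> simp [faH, pbE, CharTwo.add_self_eq_zero])
    (by
      rintro _ ⟨v, rfl⟩
      refine ⟨P.nf (pbE v.toAdd.1 v.toAdd.2 0 0 0), mul_inv_eq_iff_eq_mul.2 ?_⟩
      rw [MonoidHom.comp_apply, mul_assoc, ← map_mul, ← map_mul, ← map_mul]
      congr 1
      rw [show faH a v * pbE v.toAdd.1 v.toAdd.2 0 0 0 = pbE v.toAdd.1 v.toAdd.2
        (a.a6 * v.toAdd.2 + a.a7 * v.toAdd.1 + a.b8 * σ v.toAdd.1) (a.b8 * v.toAdd.1)
        (a.b8 * v.toAdd.2 + σ a.b8 * v.toAdd.1) by ext <;> simp [faH, pbE]]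
      ext <;> simp [pbE, h8] <;> grind)
  refine (b4 Q (by simp)).resolve_left fun hz => ?_
  rw [← Nat.card_congr (MonoidHom.ofInjective inj).toEquiv,
    Nat.card_congr (Multiplicative.toAdd (α := K × K)), Nat.card_prod] at b2
  have e1 := Subgroup.eq_of_le_of_card_ge hz (fa_card_Z.trans
    (Nat.le_of_mul_le_mul_left (b2.trans (P.elem_C B b1)) Nat.card_pos))
  obtain ⟨v, hv⟩ := b3 (e1.ge ⟨y4 0 1, by simp, rfl⟩).1
  exact hb (congrArg Co.b8 (P.inj hv)).symm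

/-- the hyperplane of `E` centralising `x₁(1)` -/
def faJ : Multiplicative (K × K × K × K) →* Co K where
  toFun v := pbE v.toAdd.1 v.toAdd.2.1 v.toAdd.2.2.1 v.toAdd.2.2.2 0
  map_one' := by ext <;> simp [pbE]
  map_mul' v w := by ext <;> simp [pbE]

theorem Hyp.fus_E (H : Hyp P ι) {g : G} {c : C} (h : g * ι P.z * g⁻¹ = ι c) (hc : c ∉ Z.map P.nf) :
    ∃ g : G, ∃ e ∈ E, e ∉ Z ∧ g * ι P.z * g⁻¹ = ι (P.nf e) := by
  obtain ⟨g, a, ha, hz, h⟩ := H.fus_Q h hc
  by_cases he : a ∈ E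
  · exact ⟨g, a, he, hz, h⟩
  obtain ⟨d, e⟩ := P.classQ ha he (P.inj (by rw [map_mul, fa_sq H h, map_one]))
  have inj : Function.Injective (P.nf.comp faJ) := (injective_iff_map_eq_one _).2 fun v hv => by
    have e1 : faJ v = 1 := P.inj (hv.trans (map_one _).symm)
    exact Multiplicative.toAdd.injective (Prod.ext (congrArg Co.b2 e1) (Prod.ext (congrArg Co.a3 e1)
      (Prod.ext (congrArg Co.b4 e1) (congrArg Co.a5 e1))))
  obtain ⟨B, b1, b2, -, b4⟩ := fa_key H (fa_move h e) (P.nf.comp faJ).range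
    (by
      rintro _ ⟨v, rfl⟩
      rw [MonoidHom.comp_apply, ← map_mul, ← map_one P.nf]
      congr 1
      ext <;> simp [faJ, pbE, CharTwo.add_self_eq_zero])
    (by
      rintro _ ⟨v, rfl⟩
      obtain ⟨q, -, e⟩ := conj_x1 (e := faJ v) (pbE_mem _ _ _ _ _) rfl
      exact ⟨P.nf q, by rw [MonoidHom.comp_apply, ← map_inv, ← map_mul, ← map_mul, ← map_mul, e]⟩)
  refine (b4 E (by simp)).resolve_left fun hz => ?_
  rw [← Nat.card_congr (MonoidHom.ofInjective inj).toEquiv,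
    Nat.card_congr (Multiplicative.toAdd (α := K × K × K × K)), Nat.card_prod, Nat.card_prod,
    Nat.card_prod] at b2
  have e1 := (b2.trans (P.elem_C B b1)).trans (Nat.mul_le_mul_left _ ((P.elem_Q B b1).trans
    (Nat.mul_le_mul_left _ ((Subgroup.card_le_of_le hz).trans fa_card_Z))))
  have e2 : 1 < Nat.card K := Finite.one_lt_card
  have e3 := Nat.le_of_mul_le_mul_left (Nat.le_of_mul_le_mul_left e1 Nat.card_pos) Nat.card_pos
  nlinarith

end H78.Oct
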