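import Mathlib
import Cfsg.Agent.Lib.Oct.Def2
import Cfsg.Agent.Lib.Oct.GR
import Cfsg.Agent.Lib.Oct.OP

/-!
# The case q = 2: the graph subgroup
-/

set_option autoImplicit false
set_option linter.unusedSectionVars false

namespace H78.Oct

open Co

variable {K C G : Type*} [Field K] [Tits K] [Finite K] [Group C] [Finite C] [Group G] [Finite G]
  {P : Par K C} {ι : C →* G}

namespace G2

theorem rel0 (hK : ∀ x : K, x = 0 ∨ x = 1) (P : Par K C) {a b t v : K}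
    (e : P.n * P.nf (y8 0 1) * P.n = P.nf (y8 a b) * P.n * P.nf (y8 t v)) : P.Rel := by
  have zz : P.nf (y8 0 1) * P.nf (y8 0 1) = 1 := by
    rw [← map_mul, ← map_one P.nf]; congr 1; ext <;> simp <;> grind
  have e1 : P.nf (y8 a b) * P.n * P.nf (y8 t v) * (P.nf (y8 a b) * P.n * P.nf (y8 t v)) = 1 := by
    rw [← e]
    calc P.n * P.nf (y8 0 1) * P.n * (P.n * P.nf (y8 0 1) * P.n)
        = P.n * (P.nf (y8 0 1) * (P.n * P.n) * P.nf (y8 0 1)) * P.n := by group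
      _ = 1 := by rw [P.nn, mul_one, zz, mul_one, P.nn]
  have e2 : y8 t v * y8 a b = y8 (t + a) (t * σ a + v + b) := by ext <;> simp
  have e3 : P.n * P.nf (y8 (t + a) (t * σ a + v + b)) * P.n = P.nf ((y8 a b)⁻¹ * (y8 t v)⁻¹) := by
    rw [← e2, map_mul, map_mul, map_inv, map_inv]
    calc _ = (P.nf (y8 a b))⁻¹ * (P.nf (y8 a b) * P.n * P.nf (y8 t v) *
        (P.nf (y8 a b) * P.n * P.nf (y8 t v))) * (P.nf (y8 t v))⁻¹ := by group
      _ = _ := by rw [e1, mul_one]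
  obtain ⟨k1, k2⟩ := P.n_y8 _ _ _ e3
  rw [k1, k2, show (y8 0 0 : Co K) = 1 by ext <;> simp] at e2
  have e4 : y8 a b = (y8 t v)⁻¹ := eq_inv_of_mul_eq_one_right e2
  rw [e4] at e
  have q1 : (y8 0 1 * w2 (x1 1) * (y8 0 1)⁻¹ : Co K) ∈ Q :=
    PA_Q (c := y8 0 1) (w2_mem (x1 1)) (by group)
  have q2 : (y8 t v * x1 1 * (y8 t v)⁻¹ : Co K) ∈ Q := PA_Q (c := y8 t v) (a := x1 1) (by simp) (by group)
  obtain ⟨rfl, rfl⟩ := B2.pin hK (t := t) (v := v) (P.inj (by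
    rw [← P.n_nf _ q1, map_mul, map_mul, map_mul, map_mul, ← P.n_nf _ q2, ← P.n_nf (x1 1) (by simp)]
    simp only [map_mul, map_inv] at e ⊢
    calc _ = P.n * P.nf (y8 0 1) * P.n * P.nf (x1 1) * (P.n⁻¹ * P.nf (y8 0 1) * P.n⁻¹)⁻¹ := by group
      _ = _ := by rw [P.n_inv, e, mul_inv_rev, mul_inv_rev, P.n_inv]; group))
  rw [show ((y8 1 0)⁻¹ : Co K) = y8 1 1 by ext <;> simp] at e
  exact e

theorem sz {X : Type*} [Group X] (hK : ∀ x : K, x = 0 ∨ x = 1) (f : Co K →* X) {m : X} (mm : m * m = 1)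
    (e : m * f (y8 0 1) * m = f (y8 1 1) * m * f (y8 1 0)) (t v : K) (h : ¬ (t = 0 ∧ v = 0)) :
    ∃ a b a' b', m * f (y8 t v) * m = f (y8 a b) * 1 * m * f (y8 a' b') := by
  have u1 : f (y8 1 1) = (f (y8 1 0))⁻¹ := by rw [← map_inv]; congr 1; ext <;> simp
  have u2 : f (y8 0 1) = (f (y8 0 1))⁻¹ := by rw [← map_inv]; congr 1; ext <;> simp
  have mi : m⁻¹ = m := inv_eq_of_mul_eq_one_right mm
  have e2 : m * f (y8 1 0) * m = f (y8 1 0) * m * f (y8 0 1) := by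
    calc m * f (y8 1 0) * m = f (y8 1 0) * (f (y8 1 1) * m * f (y8 1 0)) * m := by rw [u1]; group
      _ = f (y8 1 0) * m * f (y8 0 1) * (m * m) := by rw [← e]; group
      _ = _ := by rw [mm, mul_one]
  rcases hK t with rfl | rfl <;> rcases hK v with rfl | rfl
  · exact absurd ⟨rfl, rfl⟩ h
  · exact ⟨1, 1, 1, 0, by rw [mul_one, e]⟩
  · exact ⟨1, 0, 0, 1, by rw [mul_one, e2]⟩
  · refine ⟨0, 1, 1, 1, ?_⟩
    calc m * f (y8 1 1) * m = (m⁻¹ * f (y8 1 0) * m⁻¹)⁻¹ := by rw [u1]; group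
      _ = (f (y8 0 1))⁻¹ * m⁻¹ * (f (y8 1 0))⁻¹ := by rw [mi, e2, mul_inv_rev, mul_inv_rev, mi, mul_assoc]
      _ = _ := by rw [← u2, ← u1, mi, mul_one]

end G2

theorem Oct.rel {Γ : Type*} [Group Γ] [Finite Γ] (hK : ∀ x : K, x = 0 ∨ x = 1) (O : Oct K Γ)
    {P : Par K (Subgroup.centralizer ({O.z} : Set Γ))} (hP : O.Cen P) : P.Rel := by
  obtain ⟨a, b, t, v, ⟨c, k⟩, e⟩ := O.sz 0 1 (by simp)
  rw [B2.unit hK c, B2.unit hK k, show ((1, 1) : Kˣ × Kˣ) = 1 from rfl, map_one, mul_one] at e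
  refine G2.rel0 hK P (a := a) (b := b) (t := t) (v := v) (Subtype.ext ?_)
  simpa only [Subgroup.coe_mul, hP.nf, hP.n] using e

namespace G2

variable {Γ : Type*} [Group Γ] [Finite Γ] {O : Oct K Γ}
  {P P' : Par K (Subgroup.centralizer ({O.z} : Set Γ))}
  {ι : Subgroup.centralizer ({O.z} : Set Γ) →* G} {n : G}

/-- the diagonal octagon data -/
def grD (hK : ∀ x : K, x = 0 ∨ x = 1) (hP : O.Cen P) (F : Fr2 P' ι n) (hr : (n * ι P'.n) ^ 8 = 1) :
    Pre K (Γ × G) where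
  nf := O.nf.prod (ι.comp P'.nf)
  n1 := (O.n1, n)
  n2 := (O.n2, ι P'.n)
  n11 := Prod.ext O.n11 F.nn
  n22 := Prod.ext O.n22 (by change ι P'.n * ι P'.n = 1; rw [← map_mul, P'.nn, map_one])
  rho := Prod.ext O.rho hr
  n1_nf a ha := Prod.ext (O.n1_nf a ha) (F.n_nf a ha)
  n2_nf a ha := Prod.ext (O.n2_nf a ha) (by
    change ι P'.n * ι (P'.nf a) * ι P'.n = ι (P'.nf (w2 a))
    rw [← map_mul, ← map_mul, P'.n_nf a ha])
  h := 1
  h_nf c k a := by rw [B2.unit hK c, B2.unit hK k, tor_one]; simp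
  n1_h c k := by
    rw [MonoidHom.one_apply, MonoidHom.one_apply, mul_one]
    exact Prod.ext O.n11 F.nn
  n2_h c k := by
    rw [MonoidHom.one_apply, MonoidHom.one_apply, mul_one]
    exact Prod.ext O.n22 (by change ι P'.n * ι P'.n = 1; rw [← map_mul, P'.nn, map_one])
  sl2 s hs := by
    obtain rfl := (hK s).resolve_left hs
    refine ⟨1, 1, 1, ?_⟩
    rw [map_one, mul_one]
    refine Prod.ext ?_ F.braid
    have xx : O.nf (x1 1) * O.nf (x1 1) = 1 := by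
      rw [← map_mul, ← map_one O.nf]; congr 1; ext <;> simp <;> grind
    change O.n1 * O.nf (x1 1) * O.n1 = O.nf (x1 1) * O.n1 * O.nf (x1 1)
    calc O.n1 * O.nf (x1 1) * O.n1 = O.nf (x1 1) * O.nf (x1 1) * (O.n1 * O.nf (x1 1) * O.n1) *
        (O.nf (x1 1) * O.nf (x1 1)) := by rw [xx, one_mul, mul_one]
      _ = O.nf (x1 1) * (O.nf (x1 1) * (O.n1 * O.nf (x1 1) * O.n1) * O.nf (x1 1)) * O.nf (x1 1) := by group
      _ = _ := by rw [← O.n1_eq]
  sz t v h := by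
    obtain ⟨a, b, a', b', e⟩ := sz hK (O.nf.prod (ι.comp P'.nf)) (m := (O.n2, ι P'.n))
      (Prod.ext O.n22 (by change ι P'.n * ι P'.n = 1; rw [← map_mul, P'.nn, map_one]))
      (Prod.ext (by
        have := congrArg Subtype.val (O.rel hK hP)
        simp only [Subgroup.coe_mul, hP.nf, hP.n] at this
        exact this) (by
        have := congrArg ι F.rel
        simp only [map_mul] at this
        exact this)) t v h
    exact ⟨a, b, a', b', 1, e⟩

theorem graph (hK : ∀ x : K, x = 0 ∨ x = 1) (hP : O.Cen P) (F : Fr2 P' ι n) (hr : (n * ι P'.n) ^ 8 = 1) :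
    ∃ ψ : Γ →* G, (∀ a, ψ (O.nf a) = ι (P'.nf a)) ∧ ψ O.n2 = ι P'.n := by
  obtain ⟨Y, y1, -, y3, y4, y5⟩ := (grD hK hP F hr).bruhat
  have sj : Function.Surjective ((MonoidHom.fst Γ G).comp Y.subtype) := MonoidHom.range_eq_top.1
    (O.gen _ (fun a => ⟨⟨_, y1 a⟩, rfl⟩) ⟨⟨_, y3⟩, rfl⟩ ⟨⟨_, y4⟩, rfl⟩)
  have inj : Function.Injective ((MonoidHom.fst Γ G).comp Y.subtype) :=
    (injective_iff_map_eq_one _).2 fun g hg => by
      obtain ⟨a, x, j, b, hj, e | e⟩ := y5 g g.2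
      · have e1 : 1 = O.nf a * O.h 1 * (O.n1 * O.n2) ^ j * O.nf b := by
          rw [map_one]; exact hg.symm.trans (congrArg Prod.fst e)
        obtain rfl := O.rot_norm hj (gr_norm O e1)
        have e2 : a * b = 1 := O.inj (by
          rw [pow_zero, map_one, mul_one, mul_one] at e1
          rw [map_mul, map_one, ← e1])
        refine Subtype.ext (e.trans ?_)
        rw [pow_zero, mul_one, show (grD hK hP F hr).h x = 1 from rfl, mul_one, ← map_mul, e2, map_one]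
        rfl
      · refine (O.refl_norm j (gr_norm O (a := a) (b := b) (x := 1) ?_)).elim
        rw [map_one]; exact hg.symm.trans (congrArg Prod.fst e)
  let i := MulEquiv.ofBijective _ ⟨inj, sj⟩
  have key : ∀ p ∈ Y, ((MonoidHom.snd Γ G).comp Y.subtype).comp i.symm.toMonoidHom p.1 = p.2 :=
    fun p hp => congrArg (fun y : Y => (y : Γ × G).2) (i.symm_apply_apply ⟨p, hp⟩)
  exact ⟨_, fun a => key _ (y1 a), key _ y4⟩

end G2

theorem Oct.graph2 {Γ : Type*} [Group Γ] [Finite Γ] (hK : ∀ x : K, x = 0 ∨ x = 1) (O : Oct K Γ)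
    {P P' : Par K (Subgroup.centralizer ({O.z} : Set Γ))} (hP : O.Cen P)
    {ι : Subgroup.centralizer ({O.z} : Set Γ) →* G} (H : Hyp P' ι) {n : G} (F : Fr2 P' ι n)
    (hr : (n * ι P'.n) ^ 8 = 1) :
    ∃ ψ : Γ →* G, Hyp P (ψ.comp (Subgroup.subtype _)) ∧
      (ψ.comp (Subgroup.centralizer {O.z}).subtype).range = ι.range ∧ ψ O.z = ι P'.z := by
  obtain ⟨ψ, h1, h2⟩ := G2.graph hK hP F hr
  obtain ⟨φ, hφ⟩ : ∃ φ, φ = ψ.comp (Subgroup.centralizer {O.z}).subtype := ⟨_, rfl⟩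
  have k1 : ∀ a, φ (P.nf a) = ι (P'.nf a) := fun a => by
    rw [hφ, ← h1, ← hP.nf]; rfl
  have k2 : φ P.n = ι P'.n := by rw [hφ, ← h2, ← hP.n]; rfl
  have hr : φ.range = ι.range := by
    apply le_antisymm
    · rintro _ ⟨c, rfl⟩
      refine P.PA_ind (p := fun c => φ c ∈ ι.range) (fun x y hx hy => ?_) (fun a => ⟨_, (k1 a).symm⟩)
        (fun k => ?_) ⟨_, k2.symm⟩ c
      · rw [map_mul]; exact ι.range.mul_mem hx hy
      · rw [B2.d_one hK, map_one]; exact ι.range.one_mem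
    · rintro _ ⟨c, rfl⟩
      refine P'.PA_ind (p := fun c => ι c ∈ φ.range) (fun x y hx hy => ?_) (fun a => ⟨_, k1 a⟩)
        (fun k => ?_) ⟨_, k2⟩ c
      · rw [map_mul]; exact φ.range.mul_mem hx hy
      · rw [B2.d_one hK, map_one]; exact φ.range.one_mem
  have inj : Function.Injective φ := by
    have hb : Function.Bijective φ.rangeRestrict :=
      (Nat.bijective_iff_surjective_and_card _).2 ⟨φ.rangeRestrict_surjective, by
        rw [hr]; exact Nat.card_congr (MonoidHom.ofInjective H.inj).toEquiv⟩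
    exact fun x y e => hb.1 (Subtype.ext e)
  refine ⟨ψ, ?_, hφ ▸ hr, h1 _⟩
  rw [← hφ]
  refine ⟨inj, hr ▸ H.odd, fun g hg => ?_, fun g hg ho => H.core g (fun a ha => k1 a ▸ hg a ha) ho⟩
  rw [nm_iff, hr, ← nm_iff]
  exact H.norm g (by rwa [Par.z, k1] at hg)

end H78.Oct
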