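import Mathlib
import Cfsg.Agent.Lib.Oct.Def2
import Cfsg.Agent.Lib.Invol.Dihedral

/-!
# The case q = 2: involutions
-/

set_option autoImplicit false
set_option linter.unusedSectionVars false

namespace H78.Oct

open Co

variable {K C G : Type*} [Field K] [Tits K] [Finite K] [Group C] [Finite C] [Group G] [Finite G]
  {P : Par K C} {ι : C →* G}

set_option hygiene false in
local notation "⟪" a "⟫" => ι (P.nf a)

namespace IV

theorem mm : ι P.n * ι P.n = 1 := by rw [← map_mul, P.nn, map_one]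

theorem m_inv : (ι P.n)⁻¹ = ι P.n := inv_eq_of_mul_eq_one_left mm

theorem n_inv {n : G} (F : Fr2 P ι n) : n⁻¹ = n := inv_eq_of_mul_eq_one_left F.nn

theorem m_nf {a b : Co K} (ha : a ∈ Q) (e : w2 a = b) : ι P.n * ⟪a⟫ * (ι P.n)⁻¹ = ⟪b⟫ := by
  rw [m_inv, ← map_mul, ← map_mul, P.n_nf a ha, e]

theorem n_nf {n : G} (F : Fr2 P ι n) {a b : Co K} (ha : a ∈ R) (e : w1 a = b) : n * ⟪a⟫ * n⁻¹ = ⟪b⟫ := by
  rw [n_inv F, F.n_nf a ha, e]

theorem r_nf {n : G} (F : Fr2 P ι n) {a b c : Co K} (ha : a ∈ Q) (e : w2 a = b) (hb : b ∈ R) (e' : w1 b = c) :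
    n * ι P.n * ⟪a⟫ * (n * ι P.n)⁻¹ = ⟪c⟫ := by
  rw [← n_nf F hb e', ← m_nf ha e]; group

theorem r2 {n : G} (F : Fr2 P ι n) (s t : K) : n * ι P.n * ⟪y2 s t⟫ * (n * ι P.n)⁻¹ = ⟪y4 s t⟫ :=
  r_nf F (b := y6 s t) (by simp) (by ext <;> simp) (by simp) (by ext <;> simp)

theorem r4 {n : G} (F : Fr2 P ι n) (s t : K) : n * ι P.n * ⟪y4 s t⟫ * (n * ι P.n)⁻¹ = ⟪y6 s t⟫ :=
  r_nf F (b := y4 s t) (by simp) (by ext <;> simp) (by simp) (by ext <;> simp)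

theorem r6 {n : G} (F : Fr2 P ι n) (s t : K) : n * ι P.n * ⟪y6 s t⟫ * (n * ι P.n)⁻¹ = ⟪y8 s t⟫ :=
  r_nf F (b := y2 s t) (by simp) (by ext <;> simp) (by simp) (by ext <;> simp)

theorem r0 {n : G} (F : Fr2 P ι n) (s t : K) :
    n * ι P.n * (ι P.n * ⟪y8 s t⟫ * (ι P.n)⁻¹) * (n * ι P.n)⁻¹ = ⟪y2 s t⟫ := by
  rw [← n_nf F (a := y8 s t) (b := y2 s t) (by simp) (by ext <;> simp), show n * ι P.n * (ι P.n * ⟪y8 s t⟫ * (ι P.n)⁻¹) *
    (n * ι P.n)⁻¹ = n * (ι P.n * ι P.n) * ⟪y8 s t⟫ * (ι P.n * ι P.n)⁻¹ * n⁻¹ by group, mm]; group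

theorem up2 {n : G} (F : Fr2 P ι n) (s t : K) :
    (n * ι P.n) ^ 2 * ⟪y4 s t⟫ * ((n * ι P.n) ^ 2)⁻¹ = ⟪y8 s t⟫ := by
  rw [← r6 F, ← r4 F]; generalize n * ι P.n = r; rw [pow_two]; group

theorem dn2 {n : G} (F : Fr2 P ι n) (s t : K) :
    ((n * ι P.n) ^ 2)⁻¹ * ⟪y4 s t⟫ * (n * ι P.n) ^ 2 = ι P.n * ⟪y8 s t⟫ * (ι P.n)⁻¹ := by
  rw [← r2 F, ← r0 F]; generalize n * ι P.n = r; rw [pow_two]; group

theorem cc {c : C} {a b : Co K} (h : c * P.nf a * c⁻¹ = P.nf b) : IsConj ⟪a⟫ ⟪b⟫ :=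
  isConj_iff.2 ⟨ι c, by rw [← h, map_mul, map_mul, map_inv]⟩

theorem sq (H : Hyp P ι) {a : Co K} (h : orderOf ⟪a⟫ = 2) : a * a = 1 :=
  FC.inj2 H (by rw [map_mul, map_mul, H9.mul_self_of_orderOf_two h, map_one, map_one])

theorem cj {g x y : G} (h : Commute x y) : Commute (g * x * g⁻¹) (g * y * g⁻¹) := h.map (MulAut.conj g)

end IV

open IV

theorem Fr2.z6 {n : G} (F : Fr2 P ι n) : n * ι P.z * n⁻¹ = ι (P.nf (y6 0 1)) :=
  IV.n_nf F (by simp) (by ext <;> simp)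

theorem Fr2.x1_x5 {n : G} (F : Fr2 P ι n) : IsConj (ι (P.nf (x5 1))) (ι (P.nf (x1 1))) :=
  ((isConj_iff.2 ⟨_, r_nf F (a := x1 1) (b := x7 1) (c := x3 1) (by simp) (by ext <;> simp) (by simp)
    (by ext <;> simp)⟩).trans (isConj_iff.2 ⟨_, m_nf (by simp) (by ext <;> simp)⟩)).symm

theorem Fr2.invol (hK : ∀ x : K, x = 0 ∨ x = 1) (H : Hyp P ι) {n : G} (F : Fr2 P ι n) {g : G}
    (hg : orderOf g = 2) : IsConj (ι P.z) g ∨ IsConj (ι (P.nf (x5 1))) g := by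
  have : Fact (Nat.Prime 2) := ⟨Nat.prime_two⟩
  have key : ∀ a ∈ Q, IsConj g ⟪a⟫ → IsConj (ι P.z) g ∨ IsConj ⟪x5 1⟫ g := fun a ha h => by
    have o : orderOf ⟪a⟫ = 2 := H9.orderOf_eq_of_isConj h ▸ hg
    by_cases hE : a ∈ E
    · by_cases hZ : a ∈ Z
      · rw [FC.Z_eq hZ] at h o
        rcases hK a.b4 with e | e <;> rw [e] at h o
        · simp [FC.z0] at o
        · exact .inl h.symm
      · obtain ⟨c, e | e⟩ := P.classE hE hZ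
        · exact .inl ((isConj_iff.2 ⟨n, F.z6⟩).trans (h.trans (cc e)).symm)
        · exact .inr (h.trans (cc e)).symm
    · obtain ⟨c, e⟩ := P.classQ ha hE (sq H o)
      exact .inr (F.x1_x5.trans (h.trans (cc e)).symm)
  obtain ⟨c, a, ha⟩ := H9.exists_conj_involution_mem_sylow
    ((isPGroup.of_surjective _ (ι.comp P.nf).rangeRestrict_surjective).toSylow
      (fun h => Nat.not_even_iff_odd.2 H.odd_S (even_iff_two_dvd.2 h))) (H9.mul_self_of_orderOf_two hg)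
  have h : IsConj g ⟪a⟫ := isConj_iff.2 ⟨c, ha.symm⟩
  have a2 := sq H (H9.orderOf_eq_of_isConj h ▸ hg)
  rcases hK a.b8 with e | e
  · exact key a ⟨Par.pb_a8' a2, e⟩ h
  obtain ⟨h1, -, h2 | ⟨h2, h3⟩⟩ := B2.inv_out hK a2 e
  · exact key _ h2 (h.trans (isConj_iff.2 ⟨n, IV.n_nf F h1 rfl⟩))
  · refine key _ h3 ((h.trans (cc (c := P.nf (x1 1)) ?_)).trans (isConj_iff.2 ⟨n, IV.n_nf F h2 rfl⟩))
    rw [← map_inv, ← map_mul, ← map_mul, show (x1 1 : Co K)⁻¹ = x1 1 by ext <;> simp]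

theorem Fr2.point_Q (H : Hyp P ι) {n : G} (F : Fr2 P ι n) {a : Co K} (ha : a ∈ Q)
    (h : IsConj (ι P.z) (ι (P.nf a))) : a ∈ E := by
  by_contra hE
  obtain ⟨c, e⟩ := P.classQ ha hE (sq H (H9.orderOf_eq_of_isConj h ▸ H.order))
  obtain ⟨g, hg⟩ := isConj_iff.1 ((h.trans (cc e)).trans F.x1_x5.symm)
  exact H.not_x5 g hg

theorem Fr2.point_R (hK : ∀ x : K, x = 0 ∨ x = 1) (H : Hyp P ι) {n : G} (F : Fr2 P ι n) {a : Co K}
    (h : IsConj (ι P.z) (ι (P.nf a))) : a ∈ R := by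
  have a2 := sq H (H9.orderOf_eq_of_isConj h ▸ H.order)
  rcases hK a.b8 with e | e
  · exact (F.point_Q H ⟨Par.pb_a8' a2, e⟩ h).1
  · exact (B2.inv_out hK a2 e).1

theorem Par.cent_U (hK : ∀ x : K, x = 0 ∨ x = 1) (P : Par K C) {c : C} (h8 : Commute c (P.nf (y8 0 1)))
    (h0 : Commute c (P.n * P.nf (y8 0 1) * P.n)) : ∃ s t, c = P.nf (y4 s t) := by
  have key : ∀ c, Commute c (P.nf (y8 0 1)) → ∃ a, c = P.nf a := fun c h => by
    obtain ⟨a, k, rfl⟩ | ⟨a, k, t, v, rfl⟩ := P.bruhat c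
    · exact ⟨a, by rw [B2.d_one hK, mul_one]⟩
    · have := P.PA_big (mul_inv_eq_iff_eq_mul.2 h.eq)
      rw [show y8 t v * y8 0 1 * (y8 t v)⁻¹ = y8 0 1 from
        mul_inv_eq_iff_eq_mul.2 (by ext <;> simp [add_comm])] at this
      exact absurd (P.n_y8 _ _ _ this).2 one_ne_zero
  obtain ⟨a, rfl⟩ := key c h8
  have h1 : Commute (P.n * P.nf a * P.n) (P.nf (y8 0 1)) := by
    have := h0.map (MulAut.conj P.n)
    simp only [MulAut.conj_apply, P.n_inv, ← mul_assoc, P.nn, one_mul] at this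
    rwa [mul_assoc _ P.n P.n, P.nn, mul_one] at this
  obtain ⟨b, hb⟩ := key _ h1
  have ha := P.inter hb
  rw [P.n_nf a ha] at h1
  exact ⟨_, _, congrArg _ (B2.cent_U hK ha (P.PA_cm h8) (P.PA_cm h1))⟩

/-- The centralizer of the opposite point `ρ⁻⁴ τ ρ⁴` meets `Q` trivially. -/
theorem Fr2.opp_Q (hK : ∀ x : K, x = 0 ∨ x = 1) (H : Hyp P ι) {n : G} (F : Fr2 P ι n) {q : Co K} (hq : q ∈ Q)
    (h : Commute (ι (P.nf q)) (((n * ι P.n) ^ 4)⁻¹ * ι P.z * (n * ι P.n) ^ 4)) : q = 1 := by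
  classical
  have : Fact (Nat.Prime 2) := ⟨Nat.prime_two⟩
  by_contra q1
  have u := up2 F
  have d := dn2 F
  obtain ⟨r, hr⟩ : ∃ r, r = (n * ι P.n) ^ 2 := ⟨_, rfl⟩
  obtain ⟨c, hc⟩ : ∃ c, c = P.n * P.nf (y8 0 1) * P.n := ⟨_, rfl⟩
  have d1 : r⁻¹ * ι P.z * r = ι c := by rw [hc, map_mul, map_mul, hr]; exact (d 0 1).trans (by rw [m_inv])
  rw [show (n * ι P.n) ^ 4 = r * r by rw [hr, ← pow_add], show (r * r)⁻¹ * ι P.z * (r * r) =
    r⁻¹ * (r⁻¹ * ι P.z * r) * r⁻¹⁻¹ by group, d1] at h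
  rw [← hr] at u d
  have cz : ∀ c, Commute (ι c) (ι P.z) := fun c => (P.z_comm c 1).map ι
  have c2 : ι c * ι c = 1 := by
    rw [← d1, show r⁻¹ * ι P.z * r * (r⁻¹ * ι P.z * r) = r⁻¹ * (ι P.z * ι P.z) * r by group,
      H9.mul_self_of_orderOf_two H.order]; group
  have cA : Commute (ι c) (r⁻¹ * ι c * r⁻¹⁻¹) := by
    have := cj (g := r⁻¹) (cz c).symm
    rwa [inv_inv, d1, ← inv_inv r, inv_inv r⁻¹] at this
  let Y := Q.map (ι.comp P.nf) ⊓ Subgroup.centralizer {r⁻¹ * ι c * r⁻¹⁻¹}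
  let f : Y → Y := fun y => ⟨ι c * y * (ι c)⁻¹, by
    obtain ⟨a, ha, e⟩ := y.2.1
    obtain ⟨b, hb, e'⟩ := P.conj_Q c ha
    exact ⟨b, hb, by rw [← e, MonoidHom.comp_apply, ← e']; simp⟩,
    Subgroup.mul_mem _ (Subgroup.mul_mem _ (Subgroup.mem_centralizer_singleton_iff.2 cA) y.2.2)
      (Subgroup.inv_mem _ (Subgroup.mem_centralizer_singleton_iff.2 cA))⟩
  have hf : Function.Involutive f := fun y => Subtype.ext (by
    change ι c * (ι c * y * (ι c)⁻¹) * (ι c)⁻¹ = y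
    rw [show ι c * (ι c * y * (ι c)⁻¹) * (ι c)⁻¹ = ι c * ι c * y * (ι c * ι c)⁻¹ by group, c2]; group)
  have := Fintype.ofFinite Y
  have hY : IsPGroup 2 Y := ((isPGroup.to_subgroup Q).map _).to_inf_left
  have : Nontrivial Y := ⟨⟨⟪q⟫, ⟨q, hq, rfl⟩, Subgroup.mem_centralizer_singleton_iff.2 h⟩, 1, fun e =>
    q1 (FC.inj2 H ((congrArg Subtype.val e).trans (by simp)))⟩
  obtain ⟨⟨_, ⟨a, ha, rfl⟩, h1⟩, h2, h3⟩ := Equiv.Perm.exists_fixed_point_of_prime' (p := 2) (n := 1) (σ := hf.toPerm)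
    (by rw [← Nat.card_eq_fintype_card]; exact hY.card_eq_or_dvd.resolve_left Finite.one_lt_card.ne')
    (Equiv.ext fun y => hf y) (a := 1) (Subtype.ext (by simp [f]))
  have h4 : Commute ⟪a⟫ (ι c) := (mul_inv_eq_iff_eq_mul.1 (congrArg Subtype.val h2)).symm
  have h5 := cj (g := r) h4
  rw [← d1, show r * (r⁻¹ * ι P.z * r) * r⁻¹ = ι P.z by group] at h5
  obtain ⟨e, he⟩ := H.mem_of_two h5 (HA.two a r)
  have h6 := cj (g := r) (cz (P.nf a))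
  have h7 := cj (g := r) (show Commute ⟪a⟫ _ from Subgroup.mem_centralizer_singleton_iff.1 h1)
  rw [show r * (r⁻¹ * ι c * r⁻¹⁻¹) * r⁻¹ = ι c by group, he] at h7
  rw [he, Par.z, u] at h6
  obtain ⟨s, t, rfl⟩ := P.cent_U hK (c := e) (H.inj (by simpa using h6.eq)) (hc ▸ H.inj (by simpa using h7.eq))
  obtain ⟨rfl, rfl⟩ := P.n_y8 s t a (H.inj (by
    have := d s t
    rw [m_inv] at this
    rw [map_mul, map_mul, ← this, ← he]; group))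
  rw [FC.z0, map_one, map_one, mul_inv_eq_one, mul_eq_left] at he
  exact h3 (Subtype.ext he)

end H78.Oct
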