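import Mathlib
import Cfsg.Agent.Lib.Oct.FC
import Cfsg.Agent.Lib.LocStruct.SylowIn
import Cfsg.Agent.Lib.Core.PCore

/-!
# Normal subgroups
-/

set_option autoImplicit false
set_option linter.unusedSectionVars false

namespace H78.Oct

open Co

variable {K C G : Type*} [Field K] [Tits K] [Finite K] [Group C] [Finite C] [Group G] [Finite G]
  {P : Par K C} {ι : C →* G}

namespace NL

theorem comm_mem {X : Type*} [Group X] {N : Subgroup X} [hN : N.Normal] {a b c : X} (ha : a ∈ N)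
    (h : b * a = a * b * c) : c ∈ N := by
  have e : c = (b⁻¹ * a⁻¹ * b⁻¹⁻¹) * a := by
    rw [inv_inv]
    calc c = b⁻¹ * a⁻¹ * (a * b * c) := by group
      _ = _ := by rw [← h]; group
  rw [e]
  exact N.mul_mem (hN.conj_mem _ (N.inv_mem ha) _) ha

theorem comm_mem' {X : Type*} [Group X] {N : Subgroup X} [hN : N.Normal] {a b c : X} (ha : a ∈ N)
    (h : a * b = b * a * c) : c ∈ N := by
  have e : c = a⁻¹ * (b⁻¹ * a * b⁻¹⁻¹) := by
    rw [inv_inv]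
    calc c = a⁻¹ * b⁻¹ * (b * a * c) := by group
      _ = _ := by rw [← h]; group
  rw [e]
  exact N.mul_mem (N.inv_mem ha) (hN.conj_mem _ ha _)

theorem inQ (P : Par K C) (N : Subgroup C) [hN : N.Normal] (h : ¬ N ≤ Z.map P.nf) :
    ∃ a ∈ Q, a ∉ Z ∧ P.nf a ∈ N := by
  by_contra hc
  push Not at hc
  apply h
  intro c hcN
  have key : ∀ q ∈ Q, ∃ s, c * P.nf q * c⁻¹ = P.nf (y4 0 s * q) := by
    intro q hq
    obtain ⟨b, hb, e⟩ := P.conj_Q c hq
    have h1 : P.nf (b * q⁻¹) ∈ N := by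
      rw [map_mul, map_inv, ← e]
      have : c * P.nf q * c⁻¹ * (P.nf q)⁻¹ = c * (P.nf q * c⁻¹ * (P.nf q)⁻¹) := by group
      rw [this]
      exact N.mul_mem hcN (hN.conj_mem _ (N.inv_mem hcN) _)
    have h2 : b * q⁻¹ ∈ Z := by
      by_contra h3
      exact hc _ (Q.mul_mem hb (Q.inv_mem hq)) h3 h1
    refine ⟨(b * q⁻¹).b4, ?_⟩
    rw [← FC.Z_eq h2, e, inv_mul_cancel_right]
  obtain ⟨s, hs⟩ := key (y6 0 1) (by simp)
  obtain ⟨a, rfl⟩ := P.cent_z6' hs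
  obtain ⟨s, hs⟩ := key (y2 0 1) (by simp)
  rw [mul_inv_eq_iff_eq_mul, ← map_mul, ← map_mul] at hs
  have hs' := P.inj hs
  have h3 := congrArg Co.a3 hs'
  simp at h3
  have h5 := congrArg Co.a5 hs'
  simp [h3] at h5
  have ha : a ∈ Q := by simp [h3, h5]
  by_cases hz : a ∈ Z
  · exact ⟨a, hz, rfl⟩
  · exact absurd hcN (hc a ha hz)

theorem inv_of {X : Type*} [Group X] [Finite X] (N : Subgroup X) [hN : N.Normal] {a : X}
    (ha : a * a = 1) (h : ∀ x ∈ N, Commute x a → x = 1) : ∀ x ∈ N, a * x * a = x⁻¹ := by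
  have hi : a⁻¹ = a := inv_eq_of_mul_eq_one_right ha
  let f : N → N := fun x => ⟨(x : X)⁻¹ * (a * x * a⁻¹), N.mul_mem (N.inv_mem x.2) (hN.conj_mem _ x.2 a)⟩
  have hf : Function.Injective f := by
    intro x y e
    have e1 : (x : X)⁻¹ * (a * x * a⁻¹) = (y : X)⁻¹ * (a * y * a⁻¹) := congrArg Subtype.val e
    have e2 : (y : X) * (x : X)⁻¹ = 1 := by
      refine h _ (N.mul_mem y.2 (N.inv_mem x.2)) ?_
      show (y : X) * (x : X)⁻¹ * a = a * ((y : X) * (x : X)⁻¹)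
      calc (y : X) * (x : X)⁻¹ * a = y * ((x : X)⁻¹ * (a * x * a⁻¹)) * a * (x : X)⁻¹ := by group
        _ = _ := by rw [e1]; group
    exact Subtype.ext (mul_inv_eq_one.1 e2).symm
  intro x hx
  obtain ⟨y, hy⟩ := Finite.injective_iff_surjective.1 hf ⟨x, hx⟩
  have e : (y : X)⁻¹ * (a * y * a⁻¹) = x := congrArg Subtype.val hy
  rw [← e, hi]
  calc a * ((y : X)⁻¹ * (a * y * a)) * a = a * (y : X)⁻¹ * a * y * (a * a) := by group
    _ = a⁻¹ * (y : X)⁻¹ * a⁻¹ * y := by rw [ha, hi, mul_one]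
    _ = _ := by group

theorem zc (a : Co K) (t : K) : ι (P.nf a) * ι (P.nf (y4 0 t)) = ι (P.nf (y4 0 t)) * ι (P.nf a) := by
  rw [← map_mul ι, ← map_mul ι, (P.z_comm (P.nf a) t).eq]

theorem alg {X : Type*} [Group X] {l x y w z z' : X} (h : y * x = x * y * w) (h1 : l * x * l⁻¹ = z * x)
    (h2 : l * y * l⁻¹ = z' * y) (c1 : z * x = x * z) (c2 : z * y = y * z) (c3 : z' * x = x * z')
    (c4 : z' * y = y * z') (c5 : z * z' = z' * z) : l * w * l⁻¹ = w := by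
  have e : w = y⁻¹ * x⁻¹ * y * x := by
    calc w = y⁻¹ * x⁻¹ * (x * y * w) := by group
      _ = _ := by rw [← h]; group
  have e2 : l * w * l⁻¹ = (l * y * l⁻¹)⁻¹ * (l * x * l⁻¹)⁻¹ * (l * y * l⁻¹) * (l * x * l⁻¹) := by
    rw [e]; group
  rw [e2, h1, h2]
  have C1 : Commute z x := c1
  have C2 : Commute z y := c2
  have C3 : Commute z' x := c3
  have C4 : Commute z' y := c4
  have C5 : Commute z z' := c5
  calc (z' * y)⁻¹ * (z * x)⁻¹ * (z' * y) * (z * x)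
      = y⁻¹ * (z'⁻¹ * x⁻¹) * (z⁻¹ * z') * (y * z) * x := by group
    _ = y⁻¹ * (x⁻¹ * z'⁻¹) * (z' * z⁻¹) * (z * y) * x := by
        rw [C3.inv_inv.eq, C5.inv_left.eq, ← C2.eq]
    _ = w := by rw [e]; group

end NL

theorem Par.normal_E (P : Par K C) (N : Subgroup C) [N.Normal] (h : ¬ N ≤ Z.map P.nf) :
    ∃ e ∈ E, e ∉ Z ∧ P.nf e ∈ N := by
  obtain ⟨a, ha, hz, hN⟩ := NL.inQ P N h
  by_cases hF : a ∈ F
  · by_cases h4 : a.a4 = 0
    · exact ⟨a, by rw [mem_F] at hF; simp [hF, h4], hz, hN⟩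
    · have e : x1 1 * a * ((x1 1 * a)⁻¹ * (a * x1 1)) = a * x1 1 := by group
      generalize (x1 1 * a)⁻¹ * (a * x1 1) = f at e
      have hf := PA_comm ha (by simp) e
      refine ⟨f, hf, fun hz => h4 ?_, ?_⟩
      · have := congrArg Co.b2 e
        rw [mem_F] at hF
        rw [mem_Z] at hz
        simp [hF, hz] at this
        exact this
      · refine NL.comm_mem' (b := P.nf (x1 1)) hN ?_
        rw [← map_mul, ← map_mul, ← map_mul, e]
  · have e : y4 1 0 * a = a * y4 1 0 * ((a * y4 1 0)⁻¹ * (y4 1 0 * a)) := by group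
    generalize (a * y4 1 0)⁻¹ * (y4 1 0 * a) = f at e
    obtain ⟨hf, k1, k2, k3, k4⟩ := PC.key ha (by simp) (by simp) e
    refine ⟨f, hf, fun hz => hF ?_, ?_⟩
    · rw [mem_Z] at hz
      rw [mem_Q] at ha
      rw [mem_F, ← k1, ← k2, ← k3, ← k4]
      simp [hz, ha]
    · refine NL.comm_mem (b := P.nf (y4 1 0)) hN ?_
      rw [← map_mul, ← map_mul, ← map_mul, e]

theorem Par.normal_Z (P : Par K C) (N : Subgroup C) [N.Normal] : N ≤ Z.map P.nf ∨ Z.map P.nf ≤ N := by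
  by_cases h : N ≤ Z.map P.nf
  · exact Or.inl h
  right
  obtain ⟨e, he, hz, hN⟩ := P.normal_E N h
  have key : ∀ t, ∃ q ∈ Q, PC.pr e q = t := by
    intro t
    by_cases h2 : e.b2 = 0
    · by_cases h3 : e.a3 = 0
      · by_cases h5 : e.a5 = 0
        · by_cases h6 : e.b6 = 0
          · exact absurd (by rw [mem_E] at he; simp [he, h2, h3, h5, h6]) hz
          · exact ⟨x1 (t / e.b6), by simp, by simp [PC.pr]; field_simp⟩
        · exact ⟨y2 (t / e.a5) 0, by simp, by simp [PC.pr]; field_simp⟩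
      · exact ⟨y6 (t / e.a3) 0, by simp, by simp [PC.pr]; field_simp⟩
    · exact ⟨x7 (t / e.b2), by simp, by simp [PC.pr]; field_simp⟩
  rintro _ ⟨z, hz', rfl⟩
  obtain ⟨q, hq, hp⟩ := key z.b4
  have := PC.pr_eq he hq
  rw [hp, ← FC.Z_eq hz'] at this
  refine NL.comm_mem' (b := P.nf q) hN ?_
  rw [← map_mul, ← map_mul, ← map_mul, this]

open H69 in
theorem Hyp.burnside (H : Hyp P ι) (L : Subgroup G)
    (hn : ∀ a, ι (P.nf a) ∈ Subgroup.normalizer (L : Set G)) (h : ∀ a, ι (P.nf a) ∈ L → a ∈ Z)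
    (hO : Cfsg.oddCore L = ⊥) : L ≤ Z.map (ι.comp P.nf) := by
  have : Fact (Nat.Prime 2) := ⟨Nat.prime_two⟩
  obtain ⟨S, hSd⟩ : ∃ S, S = (ι.comp P.nf).range := ⟨_, rfl⟩
  have mS : ∀ {x}, x ∈ S ↔ ∃ a, x = ι (P.nf a) := by
    intro x; rw [hSd]; exact ⟨fun ⟨a, e⟩ => ⟨a, e.symm⟩, fun ⟨a, e⟩ => ⟨a, e.symm⟩⟩
  have hS : IsSylowIn 2 S ⊤ := by
    refine isSylowIn_of_not_dvd_relIndex ?_ le_top ?_
    · rw [isPGroup_iff_mem]
      intro x hx
      obtain ⟨a, rfl⟩ := mS.1 hx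
      exact ⟨4, by rw [← map_pow, P.PA_16, map_one]⟩
    · rw [Subgroup.relIndex_top_right, hSd]
      exact H.odd_S.not_two_dvd_nat
  have hSL : S ≤ 𝐍(L) := fun x hx => by obtain ⟨a, rfl⟩ := mS.1 hx; exact hn a
  have hT : IsSylowIn 2 (S ⊓ L) L := hS.inf_of_le_normalizer le_top hSL
  have mT : ∀ x ∈ S ⊓ L, ∃ t, x = ι (P.nf (y4 0 t)) := by
    intro x hx
    obtain ⟨a, rfl⟩ := mS.1 hx.1
    exact ⟨a.b4, by rw [← FC.Z_eq (h a hx.2)]⟩
  have hSC : S ≤ 𝐂(S ⊓ L) := by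
    intro x hx
    rw [mem_centralizer_iff_commute]
    intro y hy
    obtain ⟨a, rfl⟩ := mS.1 hx
    obtain ⟨t, rfl⟩ := mT y hy
    exact (NL.zc a t).symm
  have key : ∀ g ∈ L, g ∈ 𝐍(S ⊓ L) → g ∈ 𝐂(S ⊓ L) := by
    intro g hgL hgN
    have h1 : IsSylowIn 2 S (𝐂(S ⊓ L) ⊓ (L ⊔ S)) := hS.mono (le_inf hSC le_sup_right) le_top
    have h2 : g ∈ 𝐍(𝐂(S ⊓ L) ⊓ (L ⊔ S)) :=
      le_normalizer_inf (L := Subgroup.zpowers g)
        (le_normalizer_centralizer (by simpa using hgN))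
        (le_normalizer_of_le (by simpa using Subgroup.mem_sup_left hgL)) (Subgroup.mem_zpowers g)
    obtain ⟨c, hc, a, ha, e⟩ := h1.frattini h2
    have haLS : a ∈ L ⊔ S := by
      have : a = c⁻¹ * g := by rw [e]; group
      rw [this]
      exact (L ⊔ S).mul_mem ((L ⊔ S).inv_mem hc.2) (Subgroup.mem_sup_left hgL)
    obtain ⟨l, hl, s, hs, rfl⟩ := (mem_sup_of_le_normalizer_left hSL).1 haLS
    have hlN : l ∈ 𝐍(S) := by
      have := (𝐍(S)).mul_mem ha ((𝐍(S)).inv_mem (Subgroup.le_normalizer hs))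
      rwa [mul_inv_cancel_right] at this
    have hc2 : ∀ x ∈ S, ∃ t, l * x * l⁻¹ = ι (P.nf (y4 0 t)) * x := by
      intro x hx
      have : l * x * l⁻¹ * x⁻¹ ∈ S ⊓ L := by
        refine ⟨S.mul_mem (conj_mem_of_mem_normalizer hlN hx) (S.inv_mem hx), ?_⟩
        have e2 : l * x * l⁻¹ * x⁻¹ = l * (x * l⁻¹ * x⁻¹) := by group
        rw [e2]
        exact L.mul_mem hl (conj_mem_of_mem_normalizer (hSL hx) (L.inv_mem hl))
      obtain ⟨t, ht⟩ := mT _ this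
      exact ⟨t, by rw [← ht, inv_mul_cancel_right]⟩
    have hlC : l ∈ 𝐂(S ⊓ L) := by
      rw [mem_centralizer_iff_commute]
      intro y hy
      obtain ⟨t, rfl⟩ := mT y hy
      obtain ⟨u, hu⟩ := hc2 _ (mS.2 ⟨x1 1, rfl⟩)
      obtain ⟨v, hv⟩ := hc2 _ (mS.2 ⟨y6 0 t, rfl⟩)
      have r := congrArg (fun a => ι (P.nf a)) (PC.z6_rel t (x1 1))
      simp only [map_mul, x1_a1, mul_one] at r
      have := NL.alg r hu hv (NL.zc _ _).symm (NL.zc _ _).symm (NL.zc _ _).symm (NL.zc _ _).symm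
        (NL.zc _ _)
      rw [mul_inv_eq_iff_eq_mul] at this
      exact this.symm
    rw [e]
    exact (𝐂(S ⊓ L)).mul_mem hc.1 ((𝐂(S ⊓ L)).mul_mem hlC (hSC hs))
  obtain ⟨T, hTe⟩ := hT.exists_sylow
  have hP : Subgroup.normalizer ((T : Subgroup L) : Set L) ≤
      Subgroup.centralizer ((T : Subgroup L) : Set L) := by
    rw [← map_subtype_le_iff, map_subtype_normalizer, map_subtype_centralizer, hTe]
    exact fun g hg => ⟨hg.1, key g hg.1 hg.2⟩
  have : (T : Subgroup L).FiniteIndex := Subgroup.finiteIndex_of_finite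
  have hk : (MonoidHom.transferSylow T hP).ker = ⊥ := by
    rw [eq_bot_iff, ← hO]
    exact H1.le_pPrimeCore_of_not_dvd (MonoidHom.not_dvd_card_ker_transferSylow T hP)
  have hc := (MonoidHom.ker_transferSylow_isComplement' T hP).sup_eq_top
  rw [hk, bot_sup_eq] at hc
  rw [hc, map_subtype_top] at hTe
  intro x hx
  obtain ⟨t, rfl⟩ := mT x (hTe ▸ hx)
  exact ⟨y4 0 t, by simp, rfl⟩

/-- A four-group all of whose involutions are fixed point free. -/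
theorem three_fpf {X : Type*} [Group X] [Finite X] (N : Subgroup X) [N.Normal] {a b : X} (ha : a * a = 1)
    (hb : b * b = 1) (h1 : ∀ x ∈ N, Commute x a → x = 1) (h2 : ∀ x ∈ N, Commute x b → x = 1)
    (h3 : ∀ x ∈ N, Commute x (a * b) → x = 1) : N = ⊥ := by
  rw [eq_bot_iff]
  intro x hx
  refine h3 x hx ?_
  have e1 := NL.inv_of N ha h1 _ (N.inv_mem hx)
  have e2 := NL.inv_of N hb h2 x hx
  rw [← e2, inv_eq_of_mul_eq_one_right (a := b * x * b) (b := x) (by rw [e2]; group)] at e1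
  show x * (a * b) = a * b * x
  calc x * (a * b) = a * (b * x * b) * a * (a * b) := by rw [e1]
    _ = a * b * x * b * (a * a) * b := by group
    _ = a * b * x * (b * b) := by rw [ha]; group
    _ = _ := by rw [hb, mul_one]

theorem Hyp.odd_core (H : Hyp P ι) {n : G} (hn : n * ι P.z * n⁻¹ = ι (P.nf (y6 0 1))) :
    Cfsg.oddCore G = ⊥ := by
  have hN : (Cfsg.oddCore G).Normal := inferInstance
  have ho : ∀ x ∈ Cfsg.oddCore G, Odd (orderOf x) := fun x hx =>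
    Nat.coprime_two_right.1 (H1.coprime_orderOf_of_mem_pPrimeCore hx)
  have k0 : ∀ x ∈ Cfsg.oddCore G, Commute x (ι P.z) → x = 1 := by
    intro x hx hc
    obtain ⟨α, hα⟩ := H.aut (H.norm x hc)
    refine H.core x (fun a ha => ?_) (ho x hx)
    obtain ⟨b, -, e⟩ := P.aut_Q α ha
    have h1 : x * ι (P.nf a) * x⁻¹ * (ι (P.nf a))⁻¹ = ι (P.nf (b * a⁻¹)) := by
      rw [hα, e, map_mul, map_mul, map_inv, map_inv]
    have h2 : ι (P.nf (b * a⁻¹)) ∈ Cfsg.oddCore G := by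
      rw [← h1, show x * ι (P.nf a) * x⁻¹ * (ι (P.nf a))⁻¹ = x * (ι (P.nf a) * x⁻¹ * (ι (P.nf a))⁻¹) by
        group]
      exact (Cfsg.oddCore G).mul_mem hx (hN.conj_mem _ ((Cfsg.oddCore G).inv_mem hx) _)
    have h3 : ι (P.nf (b * a⁻¹)) = 1 :=
      PA_eq_one (j := 4) (by rw [← map_pow, P.PA_16, map_one]) (ho _ h2)
    rw [h3, mul_inv_eq_one, mul_inv_eq_iff_eq_mul] at h1
    exact h1
  have k1 : ∀ g w, g * ι P.z * g⁻¹ = w → ∀ x ∈ Cfsg.oddCore G, Commute x w → x = 1 := by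
    rintro g _ rfl x hx hc
    have := k0 (g⁻¹ * x * g⁻¹⁻¹) (hN.conj_mem x hx _) (by
      show g⁻¹ * x * g⁻¹⁻¹ * ι P.z = ι P.z * (g⁻¹ * x * g⁻¹⁻¹)
      calc g⁻¹ * x * g⁻¹⁻¹ * ι P.z = g⁻¹ * (x * (g * ι P.z * g⁻¹)) * g := by group
        _ = _ := by rw [hc.eq]; group)
    calc x = g * (g⁻¹ * x * g⁻¹⁻¹) * g⁻¹ := by group
      _ = 1 := by rw [this]; group
  have zz : ι P.z * ι P.z = 1 := by rw [Par.z, ← map_mul, ← map_mul, HA.z4_sq, map_one, map_one]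
  refine three_fpf _ zz (b := ι (P.nf (y6 0 1))) ?_ k0 (k1 n _ hn) (k1 (ι (P.nf (x1 1)) * n) _ ?_)
  · rw [← hn]
    calc n * ι P.z * n⁻¹ * (n * ι P.z * n⁻¹) = n * (ι P.z * ι P.z) * n⁻¹ := by group
      _ = 1 := by rw [zz]; group
  · calc ι (P.nf (x1 1)) * n * ι P.z * (ι (P.nf (x1 1)) * n)⁻¹
        = ι (P.nf (x1 1)) * (n * ι P.z * n⁻¹) * (ι (P.nf (x1 1)))⁻¹ := by group
      _ = _ := by
        rw [hn, Par.z, mul_inv_eq_iff_eq_mul]
        simp only [← map_mul]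
        congr 2
        ext <;> simp <;> grind

end H78.Oct
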